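import Mathlib
import Cfsg.Prelude.Def_CaseTheorems
import Cfsg.Agent.Lib.Basic.PCore
import Cfsg.Agent.Lib.Solvable.PSeries
import Cfsg.Agent.Lib.Components.Transport

/-!
# Normal sets of `2`-elements whose abelian subgroups generate `2`-nilpotent groups

`Hyp D`: `D` is a normal set of nontrivial `2`-elements, closed under powers, such that two abelian subgroups
with all nontrivial elements in `D` generate a group `L` with an odd normal subgroup `Q` containing `L'`, and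
all the `2`-elements of `L` belong to `D ∪ {1}`.
-/

set_option autoImplicit false
set_option linter.unusedVariables false
set_option linter.style.haveILetI false
set_option linter.unusedSectionVars false
set_option linter.deprecated false

open Cfsg
open scoped Pointwise

namespace Cfsg.Agent.Lib.ExtClosed

universe u

/-- The hypothesis on the set `D`. -/
structure Hyp {X : Type u} [Group X] (D : Set X) : Prop where
  conj_mem : ∀ a ∈ D, ∀ g : X, g * a * g⁻¹ ∈ D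
  pow_mem : ∀ a ∈ D, ∀ k : ℕ, a ^ k ≠ 1 → a ^ k ∈ D
  one_not : (1 : X) ∉ D
  two : ∀ a ∈ D, ∃ k : ℕ, a ^ 2 ^ k = 1
  pair : ∀ A B : Subgroup X, (∀ a ∈ A, ∀ a' ∈ A, a * a' = a' * a) → (∀ a ∈ A, a ≠ 1 → a ∈ D) →
    (∀ a ∈ B, ∀ a' ∈ B, a * a' = a' * a) → (∀ a ∈ B, a ≠ 1 → a ∈ D) →
    ∃ Q : Subgroup X, Q ≤ A ⊔ B ∧ Odd (Nat.card Q) ∧ (∀ l ∈ A ⊔ B, ∀ q ∈ Q, l * q * l⁻¹ ∈ Q) ∧
      (∀ l ∈ A ⊔ B, ∀ l' ∈ A ⊔ B, l * l' * l⁻¹ * l'⁻¹ ∈ Q) ∧
      (∀ l ∈ A ⊔ B, l ≠ 1 → (∃ k : ℕ, l ^ 2 ^ k = 1) → l ∈ D)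

/-- The conclusion. -/
def Concl {X : Type u} [Group X] (D : Set X) : Prop :=
  ∀ a ∈ D, ∀ b ∈ D, a * b * a⁻¹ * b⁻¹ ∈ oddCore X

section Elementary

variable {X : Type u} [Group X]

/-- A `2`-element of odd order is trivial. -/
lemma eq_one_of_two_of_odd {a : X} (h2 : ∃ k : ℕ, a ^ 2 ^ k = 1) (ho : Odd (orderOf a)) : a = 1 := by
  obtain ⟨k, hk⟩ := h2
  have h1 : orderOf a ∣ 2 ^ k := orderOf_dvd_of_pow_eq_one hk
  have h2 : Nat.Coprime (2 ^ k) (orderOf a) := Nat.Coprime.pow_left _ (Nat.coprime_two_left.2 ho)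
  exact orderOf_eq_one_iff.1 (Nat.eq_one_of_dvd_coprimes h2 h1 dvd_rfl)

lemma odd_orderOf_of_mem [Finite X] {Q : Subgroup X} (hQ : Odd (Nat.card Q)) {q : X} (hq : q ∈ Q) :
    Odd (orderOf q) := by
  have h1 : orderOf (⟨q, hq⟩ : Q) ∣ Nat.card Q := orderOf_dvd_natCard _
  rw [Subgroup.orderOf_mk] at h1
  exact hQ.of_dvd_nat h1

lemma isPGroup_iff_two {P : Subgroup X} : IsPGroup 2 P ↔ ∀ a ∈ P, ∃ k : ℕ, a ^ 2 ^ k = 1 := by
  constructor
  · intro h a ha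
    obtain ⟨k, hk⟩ := h ⟨a, ha⟩
    exact ⟨k, congrArg Subtype.val hk⟩
  · intro h a
    obtain ⟨k, hk⟩ := h a a.2
    exact ⟨k, Subtype.ext hk⟩

lemma two_pow_of_zpowers {a b : X} (hb : b ∈ Subgroup.zpowers a) (h2 : ∃ k : ℕ, a ^ 2 ^ k = 1) :
    ∃ k : ℕ, b ^ 2 ^ k = 1 := by
  obtain ⟨n, rfl⟩ := hb
  obtain ⟨k, hk⟩ := h2
  refine ⟨k, ?_⟩
  show (a ^ n) ^ 2 ^ k = 1
  rw [← zpow_natCast, ← zpow_mul, mul_comm, zpow_mul, zpow_natCast, hk, one_zpow]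

lemma isPGroup_zpowers {a : X} (h2 : ∃ k : ℕ, a ^ 2 ^ k = 1) : IsPGroup 2 (Subgroup.zpowers a) :=
  isPGroup_iff_two.2 fun _ hb => two_pow_of_zpowers hb h2

lemma comm_zpowers (a : X) : ∀ x ∈ Subgroup.zpowers a, ∀ y ∈ Subgroup.zpowers a, x * y = y * x := by
  rintro _ ⟨m, rfl⟩ _ ⟨n, rfl⟩
  show a ^ m * a ^ n = a ^ n * a ^ m
  rw [← zpow_add, ← zpow_add, add_comm]

/-- Two commuting `2`-elements generate a `2`-group. -/
lemma isPGroup_sup_zpowers {a b : X} (h : a * b = b * a) (ha : ∃ k : ℕ, a ^ 2 ^ k = 1)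
    (hb : ∃ k : ℕ, b ^ 2 ^ k = 1) : IsPGroup 2 (Subgroup.zpowers a ⊔ Subgroup.zpowers b : Subgroup X) := by
  have hc : Subgroup.zpowers a ≤ Subgroup.normalizer ((Subgroup.zpowers b : Subgroup X) : Set X) := by
    rw [Subgroup.zpowers_le]
    rw [Subgroup.mem_normalizer_iff]
    intro y
    have hcom : Commute b a := h.symm
    constructor
    · rintro ⟨n, rfl⟩
      refine ⟨n, ?_⟩
      show b ^ n = a * b ^ n * a⁻¹
      rw [← (hcom.zpow_left n).eq]; group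
    · rintro ⟨n, hn⟩
      refine ⟨n, ?_⟩
      have hn' : b ^ n = a * y * a⁻¹ := hn
      have h5 : a * y * a⁻¹ = a * b ^ n * a⁻¹ := by
        rw [← hn', ← (hcom.zpow_left n).eq]; group
      have h6 : y = b ^ n := by
        have := congrArg (fun z => a⁻¹ * z * a) h5
        simpa [mul_assoc] using this
      exact h6.symm
  exact IsPGroup.to_sup_of_normal_right' (isPGroup_zpowers ha) (isPGroup_zpowers hb) hc

/-- In a group with a normal subgroup `R`, if two `2`-elements commute modulo `R` and `u v⁻¹` has odd order,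
then `u v⁻¹ ∈ R`. -/
lemma mem_of_odd_of_two [Finite X] (R : Subgroup X) [hR : R.Normal] {u v : X} (hu : ∃ k : ℕ, u ^ 2 ^ k = 1)
    (hv : ∃ k : ℕ, v ^ 2 ^ k = 1) (hc : u * v * u⁻¹ * v⁻¹ ∈ R) (ho : Odd (orderOf (u * v⁻¹))) :
    u * v⁻¹ ∈ R := by
  rw [← QuotientGroup.eq_one_iff]
  set π := QuotientGroup.mk' R with hπ
  have hc' : π u * π v = π v * π u := by
    have h1 : π (u * v * u⁻¹ * v⁻¹) = 1 := (QuotientGroup.eq_one_iff _).2 hc
    simp only [map_mul, map_inv] at h1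
    have h2 : π u * π v * (π u)⁻¹ = π v := mul_inv_eq_one.1 h1
    exact (mul_inv_eq_iff_eq_mul.1 h2)
  have hcomm : Commute (π u) (π v) := hc'
  obtain ⟨k, hk⟩ := hu
  obtain ⟨m, hm⟩ := hv
  show π (u * v⁻¹) = 1
  have h1 : π (u * v⁻¹) = π u * (π v)⁻¹ := by simp
  rw [h1]
  apply eq_one_of_two_of_odd
  · refine ⟨k + m, ?_⟩
    rw [(hcomm.inv_right).mul_pow]
    have h3 : (π u) ^ 2 ^ (k + m) = 1 := by
      rw [pow_add, pow_mul, ← map_pow, hk, map_one, one_pow]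
    have h4 : ((π v)⁻¹) ^ 2 ^ (k + m) = 1 := by
      rw [inv_pow, inv_eq_one, add_comm, pow_add, pow_mul, ← map_pow, hm, map_one, one_pow]
    rw [h3, h4, one_mul]
  · have h5 : orderOf (π u * (π v)⁻¹) ∣ orderOf (u * v⁻¹) := by
      rw [← h1]
      exact orderOf_map_dvd _ _
    exact ho.of_dvd_nat h5

/-- A `2`-subgroup `A` of `L` maximal among `2`-subgroups of `L`: every `2`-element of `L` is `L`-conjugate into `A`. -/
lemma exists_conj_mem_of_max [Finite X] {L A : Subgroup X} (hAL : A ≤ L) (hA : IsPGroup 2 A)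
    (hmax : ∀ P : Subgroup X, P ≤ L → IsPGroup 2 P → A ≤ P → P = A) {b : X} (hb : b ∈ L)
    (hb2 : ∃ k : ℕ, b ^ 2 ^ k = 1) : ∃ l ∈ L, l * b * l⁻¹ ∈ A := by
  classical
  haveI : Fact (Nat.Prime 2) := ⟨Nat.prime_two⟩
  have hA' : IsPGroup 2 (A.subgroupOf L) := hA.comap_of_injective L.subtype L.subtype_injective
  obtain ⟨S, hS⟩ := hA'.exists_le_sylow
  have hSmap : (S : Subgroup L).map L.subtype = A := by
    apply hmax
    · rintro _ ⟨x, _, rfl⟩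
      exact x.2
    · exact S.isPGroup'.map _
    · intro a ha
      exact ⟨⟨a, hAL ha⟩, hS (by simpa [Subgroup.mem_subgroupOf] using ha), rfl⟩
  set b' : L := ⟨b, hb⟩ with hb'
  have hb'2 : IsPGroup 2 (Subgroup.zpowers b') := by
    apply isPGroup_zpowers
    obtain ⟨k, hk⟩ := hb2
    exact ⟨k, Subtype.ext hk⟩
  obtain ⟨T, hT⟩ := hb'2.exists_le_sylow
  obtain ⟨g, hg⟩ := MulAction.exists_smul_eq L T S
  have h1 : MulAut.conj g • (T : Subgroup L) = S := by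
    rw [← hg]; rfl
  have h2 : g * b' * g⁻¹ ∈ (S : Subgroup L) := by
    rw [← h1]
    have := Subgroup.smul_mem_pointwise_smul b' (MulAut.conj g) (T : Subgroup L) (hT (Subgroup.mem_zpowers b'))
    simpa [MulAut.smul_def, MulAut.conj_apply] using this
  refine ⟨g, g.2, ?_⟩
  rw [← hSmap]
  exact ⟨_, h2, rfl⟩

end Elementary

section Main

variable {X : Type u} [Group X] {D : Set X}

lemma Hyp.zpowers_mem (hD : Hyp D) {a : X} (ha : a ∈ D) [Finite X] :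
    ∀ x ∈ Subgroup.zpowers a, x ≠ 1 → x ∈ D := by
  intro x hx hx1
  obtain ⟨n, hn⟩ := (mem_powers_iff_mem_zpowers (x := a) (y := x)).2 hx
  rw [← hn] at hx1 ⊢
  exact hD.pow_mem a ha n hx1

/-- Two members of `D` in a common `2`-group commute, and their product lies in `D ∪ 1`. -/
lemma Hyp.comm_of_two [Finite X] (hD : Hyp D) {a b : X} (ha : a ∈ D) (hb : b ∈ D) {P : Subgroup X}
    (hP : IsPGroup 2 P) (haP : a ∈ P) (hbP : b ∈ P) : a * b = b * a ∧ (a * b = 1 ∨ a * b ∈ D) := by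
  obtain ⟨Q, hQL, hQo, hQn, hQc, hL⟩ := hD.pair (Subgroup.zpowers a) (Subgroup.zpowers b) (comm_zpowers a)
    (hD.zpowers_mem ha) (comm_zpowers b) (hD.zpowers_mem hb)
  have hLP : (Subgroup.zpowers a ⊔ Subgroup.zpowers b : Subgroup X) ≤ P :=
    sup_le (Subgroup.zpowers_le.2 haP) (Subgroup.zpowers_le.2 hbP)
  have haL : a ∈ (Subgroup.zpowers a ⊔ Subgroup.zpowers b : Subgroup X) :=
    Subgroup.mem_sup_left (Subgroup.mem_zpowers a)
  have hbL : b ∈ (Subgroup.zpowers a ⊔ Subgroup.zpowers b : Subgroup X) :=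
    Subgroup.mem_sup_right (Subgroup.mem_zpowers b)
  have h1 : a * b * a⁻¹ * b⁻¹ = 1 := by
    apply eq_one_of_two_of_odd
    · exact isPGroup_iff_two.1 hP _ (hLP (hQL (hQc a haL b hbL)))
    · exact odd_orderOf_of_mem hQo (hQc a haL b hbL)
  have h2 : a * b = b * a := by
    have h3 : a * b * a⁻¹ = b := mul_inv_eq_one.1 h1
    exact mul_inv_eq_iff_eq_mul.1 h3
  refine ⟨h2, ?_⟩
  by_cases h4 : a * b = 1
  · exact Or.inl h4
  · right
    apply hL _ (Subgroup.mul_mem _ haL hbL) h4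
    exact isPGroup_iff_two.1 hP _ (P.mul_mem haP hbP)

/-- Members of `D` in a Sylow `2`-subgroup `P`, together with `1`: a subgroup. -/
def Hyp.HP [Finite X] (hD : Hyp D) (P : Subgroup X) (hP : IsPGroup 2 P) : Subgroup X where
  carrier := {a | a ∈ P ∧ (a = 1 ∨ a ∈ D)}
  one_mem' := ⟨P.one_mem, Or.inl rfl⟩
  mul_mem' := by
    rintro a b ⟨haP, ha⟩ ⟨hbP, hb⟩
    refine ⟨P.mul_mem haP hbP, ?_⟩
    rcases ha with rfl | ha
    · rw [one_mul]; exact hb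
    rcases hb with rfl | hb
    · rw [mul_one]; exact Or.inr ha
    exact (hD.comm_of_two ha hb hP haP hbP).2
  inv_mem' := by
    rintro a ⟨haP, ha⟩
    refine ⟨P.inv_mem haP, ?_⟩
    rcases ha with rfl | ha
    · left; simp
    · by_cases h1 : a⁻¹ = 1
      · exact Or.inl h1
      · right
        apply hD.zpowers_mem ha _ (Subgroup.inv_mem _ (Subgroup.mem_zpowers a)) h1

lemma Hyp.mem_HP [Finite X] (hD : Hyp D) {P : Subgroup X} (hP : IsPGroup 2 P) {a : X} :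
    a ∈ hD.HP P hP ↔ a ∈ P ∧ (a = 1 ∨ a ∈ D) := Iff.rfl

lemma Hyp.HP_le [Finite X] (hD : Hyp D) {P : Subgroup X} (hP : IsPGroup 2 P) : hD.HP P hP ≤ P :=
  fun _ h => h.1

lemma Hyp.HP_two [Finite X] (hD : Hyp D) {P : Subgroup X} (hP : IsPGroup 2 P) : IsPGroup 2 (hD.HP P hP) :=
  hP.to_le (hD.HP_le hP)

lemma Hyp.HP_comm [Finite X] (hD : Hyp D) {P : Subgroup X} (hP : IsPGroup 2 P) :
    ∀ a ∈ hD.HP P hP, ∀ b ∈ hD.HP P hP, a * b = b * a := by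
  rintro a ⟨haP, ha⟩ b ⟨hbP, hb⟩
  rcases ha with rfl | ha
  · simp
  rcases hb with rfl | hb
  · simp
  exact (hD.comm_of_two ha hb hP haP hbP).1

lemma Hyp.HP_D [Finite X] (hD : Hyp D) {P : Subgroup X} (hP : IsPGroup 2 P) :
    ∀ a ∈ hD.HP P hP, a ≠ 1 → a ∈ D := by
  rintro a ⟨haP, ha⟩ h1
  rcases ha with rfl | ha
  · exact absurd rfl h1
  · exact ha

/-- The subgroup attached to a Sylow `2`-subgroup. -/
abbrev Hyp.Hs [Finite X] (hD : Hyp D) (S : Sylow 2 X) : Subgroup X :=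
  hD.HP (S : Subgroup X) S.isPGroup'

lemma Hyp.Hs_conj [Finite X] (hD : Hyp D) (S : Sylow 2 X) (g : X) :
    hD.Hs (g • S) = (hD.Hs S).map (MulAut.conj g).toMonoidHom := by
  ext a
  constructor
  · rintro ⟨haP, ha⟩
    have h1 : a ∈ MulAut.conj g • (S : Subgroup X) := haP
    obtain ⟨x, hx, hxe⟩ := h1
    have hxe' : g * x * g⁻¹ = a := hxe
    subst hxe'
    refine ⟨x, ⟨hx, ?_⟩, rfl⟩
    rcases ha with h | h
    · left
      have h2 : x = g⁻¹ * (g * x * g⁻¹) * g := by group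
      rw [h2, h]; simp
    · right
      have h3 := hD.conj_mem _ h g⁻¹
      have h2 : g⁻¹ * (g * x * g⁻¹) * g⁻¹⁻¹ = x := by group
      rwa [h2] at h3
  · rintro ⟨x, ⟨hx, hx2⟩, rfl⟩
    refine ⟨?_, ?_⟩
    · have h1 : MulAut.conj g • x ∈ MulAut.conj g • (S : Subgroup X) :=
        Subgroup.smul_mem_pointwise_smul x _ _ hx
      exact h1
    · rcases hx2 with rfl | h
      · left; simp
      · right; exact hD.conj_mem _ h g

lemma Hyp.card_Hs [Finite X] (hD : Hyp D) (S T : Sylow 2 X) : Nat.card (hD.Hs S) = Nat.card (hD.Hs T) := by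
  obtain ⟨g, rfl⟩ := MulAction.exists_smul_eq X S T
  rw [hD.Hs_conj]
  exact (Subgroup.card_map_of_injective (MulAut.conj g).injective).symm

/-- A subgroup `Hs S` inside `Hs T` equals it. -/
lemma Hyp.Hs_eq_of_le [Finite X] (hD : Hyp D) {S T : Sylow 2 X} (h : hD.Hs S ≤ hD.Hs T) : hD.Hs S = hD.Hs T :=
  Subgroup.eq_of_le_of_card_ge h (hD.card_Hs T S).le

lemma Hyp.exists_Hs_of_isPGroup [Finite X] (hD : Hyp D) {P : Subgroup X} (hP : IsPGroup 2 P) :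
    ∃ S : Sylow 2 X, P ≤ S := hP.exists_le_sylow

lemma Hyp.exists_mem_Hs [Finite X] (hD : Hyp D) {a : X} (ha : a ∈ D) : ∃ S : Sylow 2 X, a ∈ hD.Hs S := by
  haveI : Fact (Nat.Prime 2) := ⟨Nat.prime_two⟩
  obtain ⟨S, hS⟩ := (isPGroup_zpowers (hD.two a ha)).exists_le_sylow
  exact ⟨S, hS (Subgroup.mem_zpowers a), Or.inr ha⟩

lemma Hyp.exists_mem_Hs_of_comm [Finite X] (hD : Hyp D) {a b : X} (ha : a ∈ D) (hb : b ∈ D) (h : a * b = b * a) :
    ∃ S : Sylow 2 X, a ∈ hD.Hs S ∧ b ∈ hD.Hs S := by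
  haveI : Fact (Nat.Prime 2) := ⟨Nat.prime_two⟩
  obtain ⟨S, hS⟩ := (isPGroup_sup_zpowers h (hD.two a ha) (hD.two b hb)).exists_le_sylow
  exact ⟨S, ⟨hS (Subgroup.mem_sup_left (Subgroup.mem_zpowers a)), Or.inr ha⟩,
    ⟨hS (Subgroup.mem_sup_right (Subgroup.mem_zpowers b)), Or.inr hb⟩⟩

/-- Structure of `Hs S ⊔ B`: the data of `pair`, with every element in `Q * Hs S`. -/
theorem Hyp.exists_sup [Finite X] (hD : Hyp D) (S : Sylow 2 X) (B : Subgroup X)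
    (hBc : ∀ a ∈ B, ∀ a' ∈ B, a * a' = a' * a) (hBD : ∀ a ∈ B, a ≠ 1 → a ∈ D) :
    ∃ Q : Subgroup X, Q ≤ hD.Hs S ⊔ B ∧ Odd (Nat.card Q) ∧
      (∀ l ∈ hD.Hs S ⊔ B, ∀ q ∈ Q, l * q * l⁻¹ ∈ Q) ∧
      (∀ l ∈ hD.Hs S ⊔ B, ∀ l' ∈ hD.Hs S ⊔ B, l * l' * l⁻¹ * l'⁻¹ ∈ Q) ∧
      (∀ l ∈ hD.Hs S ⊔ B, l ≠ 1 → (∃ k : ℕ, l ^ 2 ^ k = 1) → l ∈ D) ∧
      (∀ l ∈ hD.Hs S ⊔ B, ∃ q ∈ Q, ∃ h ∈ hD.Hs S, l = q * h) := by
  classical
  haveI : Fact (Nat.Prime 2) := ⟨Nat.prime_two⟩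
  set A := hD.Hs S with hA
  obtain ⟨Q, hQL, hQo, hQn, hQc, hL⟩ := hD.pair A B (hD.HP_comm _) (hD.HP_D _) hBc hBD
  refine ⟨Q, hQL, hQo, hQn, hQc, hL, ?_⟩
  have hAL : A ≤ A ⊔ B := le_sup_left
  -- `A` is maximal among the `2`-subgroups
  have hmax : ∀ P : Subgroup X, P ≤ A ⊔ B → IsPGroup 2 P → A ≤ P → P = A := by
    intro P hPL hP hAP
    obtain ⟨T, hT⟩ := hP.exists_le_sylow
    have h1 : P ≤ hD.Hs T := by
      intro p hp
      refine ⟨hT hp, ?_⟩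
      by_cases hp1 : p = 1
      · exact Or.inl hp1
      · exact Or.inr (hL p (hPL hp) hp1 (isPGroup_iff_two.1 hP p hp))
    have h2 : A = hD.Hs T := hD.Hs_eq_of_le (hAP.trans h1)
    exact le_antisymm (h2 ▸ h1) hAP
  have hA2 : IsPGroup 2 A := hD.HP_two _
  -- `B` lies in `Q A`
  have hqa : ∀ b ∈ A ⊔ B, (∃ k : ℕ, b ^ 2 ^ k = 1) → ∃ q ∈ Q, ∃ h ∈ A, b = q * h := by
    intro b hb hb2
    obtain ⟨l, hl, hlb⟩ := exists_conj_mem_of_max hAL hA2 hmax hb hb2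
    set a := l * b * l⁻¹ with ha
    have h1 : l⁻¹ * a * (l⁻¹)⁻¹ * a⁻¹ ∈ Q := hQc _ (Subgroup.inv_mem _ hl) _ (hAL hlb)
    refine ⟨_, h1, a, hlb, ?_⟩
    rw [ha]; group
  set T : Subgroup X :=
    { carrier := {x | ∃ q ∈ Q, ∃ h ∈ A, x = q * h}
      one_mem' := ⟨1, Q.one_mem, 1, A.one_mem, by simp⟩
      mul_mem' := by
        rintro _ _ ⟨q, hq, h, hh, rfl⟩ ⟨q', hq', h', hh', rfl⟩
        refine ⟨q * (h * q' * h⁻¹), Q.mul_mem hq (hQn h (hAL hh) q' hq'), h * h', A.mul_mem hh hh', ?_⟩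
        group
      inv_mem' := by
        rintro _ ⟨q, hq, h, hh, rfl⟩
        refine ⟨h⁻¹ * q⁻¹ * h⁻¹⁻¹, hQn _ (hAL (A.inv_mem hh)) _ (Q.inv_mem hq), h⁻¹, A.inv_mem hh, ?_⟩
        group } with hT
  have hLT : A ⊔ B ≤ T := by
    refine sup_le ?_ ?_
    · intro a ha
      exact ⟨1, Q.one_mem, a, ha, by simp⟩
    · intro b hb
      by_cases hb1 : b = 1
      · rw [hb1]; exact T.one_mem
      · exact hqa b (Subgroup.mem_sup_right hb) (hD.two b (hBD b hb hb1))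
  intro l hl
  exact hLT hl

/-- In the situation of `exists_sup`: elements of odd order of `Hs S ⊔ B` lie in `Q`. -/
lemma mem_Q_of_odd [Finite X] {A Q : Subgroup X} (hA : IsPGroup 2 A) (hQo : Odd (Nat.card Q))
    (hQn : ∀ l ∈ A, ∀ q ∈ Q, l * q * l⁻¹ ∈ Q) {l : X}
    (hl : ∃ q ∈ Q, ∃ h ∈ A, l = q * h) (ho : Odd (orderOf l)) : l ∈ Q := by
  obtain ⟨q, hq, h, hh, rfl⟩ := hl
  have hpow : ∀ n : ℕ, ∃ q' ∈ Q, (q * h) ^ n = q' * h ^ n := by
    intro n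
    induction n with
    | zero => exact ⟨1, Q.one_mem, by simp⟩
    | succ n ih =>
      obtain ⟨q', hq', e⟩ := ih
      refine ⟨q' * (h ^ n * q * (h ^ n)⁻¹), Q.mul_mem hq' (hQn _ (A.pow_mem hh n) _ hq), ?_⟩
      rw [pow_succ, e]
      group
  obtain ⟨q', hq', e⟩ := hpow (orderOf (q * h))
  rw [pow_orderOf_eq_one] at e
  have h1 : h ^ orderOf (q * h) = q'⁻¹ := by
    rw [eq_inv_iff_mul_eq_one, ← e.symm]
    have : q' * h ^ orderOf (q * h) = 1 := e.symm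
    exact (by
      have h2 : h ^ orderOf (q * h) * q' = q'⁻¹ * (q' * h ^ orderOf (q * h)) * q' := by group
      rw [h2, this]; simp)
  have h3 : h ^ orderOf (q * h) ∈ Q := by
    rw [h1]; exact Q.inv_mem hq'
  have h4 : h ^ orderOf (q * h) = 1 := by
    apply eq_one_of_two_of_odd
    · exact isPGroup_iff_two.1 hA _ (A.pow_mem hh _)
    · exact odd_orderOf_of_mem hQo h3
  have h5 : h = 1 := by
    have h6 : orderOf h ∣ orderOf (q * h) := orderOf_dvd_of_pow_eq_one h4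
    apply eq_one_of_two_of_odd (isPGroup_iff_two.1 hA _ hh)
    exact ho.of_dvd_nat h6
  rw [h5, mul_one]
  exact hq

lemma inter_eq_one [Finite X] {A Q : Subgroup X} (hA : IsPGroup 2 A) (hQo : Odd (Nat.card Q)) {x : X}
    (h1 : x ∈ A) (h2 : x ∈ Q) : x = 1 :=
  eq_one_of_two_of_odd (isPGroup_iff_two.1 hA _ h1) (odd_orderOf_of_mem hQo h2)

end Main

end Cfsg.Agent.Lib.ExtClosed
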