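import Cfsg.Agent.Lib.ExtClosed.Sub
import Cfsg.Agent.Lib.Components.ZStarCore
import Cfsg.Agent.Lib.Components.ZStarIso
import Cfsg.Agent.Lib.Components.PComponent

/-!
# The case of an isolated involution: the `Z*`-theorem
-/

set_option autoImplicit false
set_option linter.unusedVariables false
set_option linter.style.haveILetI false
set_option linter.unusedSectionVars false
set_option linter.deprecated false

open Cfsg
open scoped Pointwise

namespace Cfsg.Agent.Lib.ExtClosed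

universe u

variable {X : Type u} [Group X] [Finite X] {D : Set X}

/-- If `R ≤ Y`, `R` odd, `Y` normalizes `R`, and `Y` covers `X / O(X)`, then `R ≤ O(X)`. -/
lemma le_oddCore_of_cover {Y R : Subgroup X} (hR : Odd (Nat.card R)) (hn : ∀ y ∈ Y, ∀ r ∈ R, y * r * y⁻¹ ∈ R)
    (hcover : ∀ g : X, ∃ y ∈ Y, y⁻¹ * g ∈ oddCore X) : R ≤ oddCore X := by
  classical
  haveI : Fact (Nat.Prime 2) := ⟨Nat.prime_two⟩
  haveI hOn : (oddCore X).Normal := Cfsg.Agent.Lib.Basic.PCore.pPrimeCore_normal 2 X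
  set π := QuotientGroup.mk' (oddCore X) with hπ
  have hRb : (R.map π).Normal := by
    constructor
    rintro _ ⟨r, hr, rfl⟩ x
    obtain ⟨g, rfl⟩ := QuotientGroup.mk'_surjective (oddCore X) x
    obtain ⟨y, hy, hyg⟩ := hcover g
    have h1 : π g = π y := by
      have h2 : π (y⁻¹ * g) = 1 := (QuotientGroup.eq_one_iff _).2 hyg
      rw [map_mul, map_inv] at h2
      exact (inv_mul_eq_one.1 h2).symm
    refine ⟨y * r * y⁻¹, hn y hy r hr, ?_⟩
    show π (y * r * y⁻¹) = π g * π r * (π g)⁻¹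
    rw [h1]
    simp only [map_mul, map_inv]
  have hcop : (Nat.card (R.map π)).Coprime 2 := by
    have h1 : Nat.card (R.map π) ∣ Nat.card R := Subgroup.card_map_dvd _ _
    exact Nat.coprime_two_right.2 (hR.of_dvd_nat h1)
  have hle := Cfsg.Agent.Lib.Basic.PCore.le_pPrimeCore hRb hcop
  have hbot : pPrimeCore 2 (X ⧸ oddCore X) = ⊥ := Cfsg.Agent.Lib.Components.PComponent.pPrimeCore_quotient_eq_bot 2
  rw [hbot] at hle
  intro r hr
  have h1 : π r ∈ (⊥ : Subgroup (X ⧸ oddCore X)) := hle ⟨r, hr, rfl⟩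
  exact (QuotientGroup.eq_one_iff r).1 (Subgroup.mem_bot.1 h1)

/-- The `Z*`-step. -/
theorem concl_of_isolated (hD : Hyp D) (S : Sylow 2 X) {u : X} (huS : u ∈ hD.Hs S) (hu2 : orderOf u = 2)
    (hiso : ∀ g : X, g * u * g⁻¹ ∈ (S : Subgroup X) → g * u * g⁻¹ = u)
    (hIH : Concl (restr D (Subgroup.centralizer ({u} : Set X)))) : Concl D := by
  classical
  haveI : Fact (Nat.Prime 2) := ⟨Nat.prime_two⟩
  haveI hOn : (oddCore X).Normal := Cfsg.Agent.Lib.Basic.PCore.pPrimeCore_normal 2 X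
  set O := oddCore X with hO
  set π := QuotientGroup.mk' O with hπ
  have hOo : Odd (Nat.card O) := by
    have h2 := Cfsg.Agent.Lib.Components.Transport.coprime_card_pPrimeCore (G := X) 2
    exact Nat.coprime_two_right.1 h2
  have hz : ∀ g : X, u * g * u⁻¹ * g⁻¹ ∈ O := Cfsg.Agent.Lib.Components.ZStarCore.zstar S u hu2 huS.1 hiso
  have huu : u * u = 1 := by rw [← pow_two, ← hu2, pow_orderOf_eq_one]
  have hui : u⁻¹ = u := inv_eq_of_mul_eq_one_left huu
  have hcent : ∀ g : X, π u * π g = π g * π u := by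
    intro g
    have h1 : π (u * g * u⁻¹ * g⁻¹) = 1 := (QuotientGroup.eq_one_iff _).2 (hz g)
    simp only [map_mul, map_inv] at h1
    have h2 : π u * π g * (π u)⁻¹ = π g := mul_inv_eq_one.1 h1
    exact mul_inv_eq_iff_eq_mul.1 h2
  -- conjugates of `u` are `O`-conjugate to `u`
  have hconj : ∀ g : X, ∃ o ∈ O, o * u * o⁻¹ = g * u * g⁻¹ := by
    intro g
    set a := g * u * g⁻¹ with ha
    have haa : a * a = 1 := by
      have : a * a = g * (u * u) * g⁻¹ := by rw [ha]; group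
      rw [this, huu]; group
    have hm : a * u ∈ O := by
      rw [← QuotientGroup.eq_one_iff]
      show π (a * u) = 1
      rw [ha]
      simp only [map_mul, map_inv]
      rw [← hcent g]
      have h1 : π u * π u = 1 := by rw [← map_mul, huu, map_one]
      calc π u * π g * (π g)⁻¹ * π u = π u * π u := by group
        _ = 1 := h1
    obtain ⟨c, hc, hcz⟩ := Cfsg.Agent.Lib.Components.ZStarIso.conj_of_odd_mul haa huu (odd_orderOf_of_mem hOo hm)
    exact ⟨c, (Subgroup.zpowers_le.2 hm) hc, hcz⟩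
  -- the centralizer covers
  set Y := Subgroup.centralizer ({u} : Set X) with hY
  have hcover : ∀ g : X, ∃ y ∈ Y, y⁻¹ * g ∈ O := by
    intro g
    obtain ⟨o, ho, e⟩ := hconj g
    refine ⟨o⁻¹ * g, ?_, ?_⟩
    · rw [hY, Subgroup.mem_centralizer_singleton_iff]
      have h1 : g * u = o * u * o⁻¹ * g := by rw [e]; group
      calc o⁻¹ * g * u = o⁻¹ * (g * u) := by group
        _ = o⁻¹ * (o * u * o⁻¹ * g) := by rw [h1]
        _ = u * (o⁻¹ * g) := by group
    · have h2 : (o⁻¹ * g)⁻¹ * g = g⁻¹ * o * g⁻¹⁻¹ := by group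
      rw [h2]
      exact hOn.conj_mem _ ho _
  have hOCle : OC Y ≤ O :=
    le_oddCore_of_cover (OC_card Y) (fun y hy r hr => OC_conj Y hy hr) hcover
  -- each member of `D` is `O`-conjugate into `C(u)`
  have hinto : ∀ a ∈ D, ∃ o ∈ O, o⁻¹ * a * o ∈ Y := by
    intro a ha
    obtain ⟨T, hT⟩ := hD.exists_mem_Hs ha
    obtain ⟨g, rfl⟩ := MulAction.exists_smul_eq X S T
    have hu' : g * u * g⁻¹ ∈ hD.Hs (g • S) := by
      rw [hD.Hs_conj]
      exact ⟨u, huS, rfl⟩
    have hcomm := hD.HP_comm _ a hT _ hu'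
    obtain ⟨o, ho, e⟩ := hconj g
    rw [← e] at hcomm
    refine ⟨o, ho, ?_⟩
    rw [hY, Subgroup.mem_centralizer_singleton_iff]
    calc o⁻¹ * a * o * u = o⁻¹ * (a * (o * u * o⁻¹)) * o := by group
      _ = o⁻¹ * ((o * u * o⁻¹) * a) * o := by rw [hcomm]
      _ = u * (o⁻¹ * a * o) := by group
  intro a ha b hb
  obtain ⟨o, ho, ha1⟩ := hinto a ha
  obtain ⟨o', ho', hb1⟩ := hinto b hb
  have ha1D : o⁻¹ * a * o ∈ D := by
    have := hD.conj_mem a ha o⁻¹
    simpa using this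
  have hb1D : o'⁻¹ * b * o' ∈ D := by
    have := hD.conj_mem b hb o'⁻¹
    simpa using this
  have hc := hOCle (concl_restr hIH ha1D ha1 hb1D hb1)
  have hπo : π o = 1 := (QuotientGroup.eq_one_iff _).2 ho
  have hπo' : π o' = 1 := (QuotientGroup.eq_one_iff _).2 ho'
  rw [← QuotientGroup.eq_one_iff]
  show π (a * b * a⁻¹ * b⁻¹) = 1
  have h1 : π ((o⁻¹ * a * o) * (o'⁻¹ * b * o') * (o⁻¹ * a * o)⁻¹ * (o'⁻¹ * b * o')⁻¹) = 1 :=
    (QuotientGroup.eq_one_iff _).2 hc
  simp only [map_mul, map_inv, hπo, hπo', inv_one, one_mul, mul_one] at h1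
  simp only [map_mul, map_inv]
  exact h1

end Cfsg.Agent.Lib.ExtClosed
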