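import Cfsg.Agent.Lib.ExtClosed.Sub

/-!
# Passing to the quotient by a central involution in `D`
-/

set_option autoImplicit false
set_option linter.unusedVariables false
set_option linter.style.haveILetI false
set_option linter.unusedSectionVars false
set_option linter.deprecated false

open Cfsg
open scoped Pointwise

namespace Cfsg.Agent.Lib.ExtClosed

universe u

variable {X : Type u} [Group X] [Finite X] {D : Set X}

/-- The image of `D` in the quotient. -/
def qset (D : Set X) (K : Subgroup X) [K.Normal] : Set (X ⧸ K) :=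
  {x | x ≠ 1 ∧ ∃ a ∈ D, QuotientGroup.mk' K a = x}

lemma relIndex_comap_mk (K : Subgroup X) [K.Normal] (O : Subgroup (X ⧸ K)) :
    K.relIndex (O.comap (QuotientGroup.mk' K)) = Nat.card O := by
  have h := Subgroup.relIndex_ker (O.comap (QuotientGroup.mk' K)) (QuotientGroup.mk' K)
  rw [QuotientGroup.ker_mk', Subgroup.map_comap_eq_self_of_surjective (QuotientGroup.mk'_surjective K)] at h
  exact h

section

variable (hD : Hyp D) {u : X} (hu : u ∈ D) (huc : ∀ g : X, g * u = u * g) (hu2 : orderOf u = 2)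
  {K : Subgroup X} [hKn : K.Normal] (hK : ∀ x : X, x ∈ K ↔ x = 1 ∨ x = u)

include hD hu huc hu2 hK

/-- Elements of the preimage of a `qset` member are in `D`. -/
lemma mem_D_of_mk {l a : X} (ha : a ∈ D) (hla : QuotientGroup.mk' K l = QuotientGroup.mk' K a) (hl1 : l ≠ 1) : l ∈ D := by
  have h1 : a⁻¹ * l ∈ K := by
    have := QuotientGroup.eq.1 hla.symm
    exact this
  rcases (hK _).1 h1 with h | h
  · have : l = a := by
      have h2 : l = a * (a⁻¹ * l) := by group
      rw [h2, h, mul_one]
    rwa [this]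
  · have h3 : l = a * u := by
      rw [← h]; group
    rw [h3] at hl1 ⊢
    have hcomm : a * u = u * a := (huc a).symm ▸ (huc a).symm
    have hP := isPGroup_sup_zpowers (a := a) (b := u) (by exact (huc a)) (hD.two a ha) (hD.two u hu)
    have := (hD.comm_of_two ha hu hP (Subgroup.mem_sup_left (Subgroup.mem_zpowers a))
      (Subgroup.mem_sup_right (Subgroup.mem_zpowers u))).2
    rcases this with h4 | h4
    · exact absurd h4 hl1
    · exact h4

lemma two_of_K {x : X} (hx : x ∈ K) : x ^ 2 = 1 := by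
  rcases (hK x).1 hx with rfl | rfl
  · simp
  · rw [← hu2, pow_orderOf_eq_one]

/-- The preimage of a subgroup with nontrivial elements in the `qset` has nontrivial elements in `D`. -/
lemma comap_D {A : Subgroup (X ⧸ K)} (hA : ∀ a ∈ A, a ≠ 1 → a ∈ qset D K) :
    ∀ l ∈ A.comap (QuotientGroup.mk' K), l ≠ 1 → l ∈ D := by
  intro l hl hl1
  by_cases h : QuotientGroup.mk' K l = 1
  · rcases (hK l).1 ((QuotientGroup.eq_one_iff l).1 h) with h1 | h1
    · exact absurd h1 hl1
    · rw [h1]; exact hu
  · obtain ⟨-, a, ha, hae⟩ := hA _ hl h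
    exact mem_D_of_mk hD hu huc hu2 hK ha hae.symm hl1

lemma comap_comm {A : Subgroup (X ⧸ K)} (hAc : ∀ a ∈ A, ∀ b ∈ A, a * b = b * a)
    (hA : ∀ a ∈ A, a ≠ 1 → a ∈ qset D K) :
    ∀ l ∈ A.comap (QuotientGroup.mk' K), ∀ l' ∈ A.comap (QuotientGroup.mk' K), l * l' = l' * l := by
  intro l hl l' hl'
  by_cases h1 : l = 1
  · simp [h1]
  by_cases h2 : l' = 1
  · simp [h2]
  have hlD := comap_D hD hu huc hu2 hK hA l hl h1
  have hlD' := comap_D hD hu huc hu2 hK hA l' hl' h2
  obtain ⟨Q, hQL, hQo, hQn, hQc, hL⟩ := hD.pair (Subgroup.zpowers l) (Subgroup.zpowers l') (comm_zpowers l)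
    (hD.zpowers_mem hlD) (comm_zpowers l') (hD.zpowers_mem hlD')
  have hc := hQc l (Subgroup.mem_sup_left (Subgroup.mem_zpowers l)) l'
    (Subgroup.mem_sup_right (Subgroup.mem_zpowers l'))
  have hc' : l * l' * l⁻¹ * l'⁻¹ ∈ K := by
    rw [← QuotientGroup.eq_one_iff]
    have h3 := hAc _ hl _ hl'
    show QuotientGroup.mk' K (l * l' * l⁻¹ * l'⁻¹) = 1
    simp only [map_mul, map_inv]
    rw [h3]
    group
  have h4 : l * l' * l⁻¹ * l'⁻¹ = 1 := by
    apply eq_one_of_two_of_odd _ (odd_orderOf_of_mem hQo hc)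
    exact ⟨1, by simpa using two_of_K hD hu huc hu2 hK hc'⟩
  have h5 : l * l' * l⁻¹ = l' := mul_inv_eq_one.1 h4
  exact mul_inv_eq_iff_eq_mul.1 h5

/-- The hypothesis passes to the quotient. -/
theorem Hyp.quot : Hyp (qset D K) where
  conj_mem := by
    rintro _ ⟨h1, a, ha, rfl⟩ g
    obtain ⟨g', rfl⟩ := QuotientGroup.mk'_surjective K g
    refine ⟨?_, g' * a * g'⁻¹, hD.conj_mem a ha g', by simp⟩
    intro h
    apply h1
    have h2 : QuotientGroup.mk' K a = (QuotientGroup.mk' K g')⁻¹ * (QuotientGroup.mk' K g' * QuotientGroup.mk' K a * (QuotientGroup.mk' K g')⁻¹) * QuotientGroup.mk' K g' := by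
      group
    rw [h2, h]; simp
  pow_mem := by
    rintro _ ⟨h1, a, ha, rfl⟩ k hk
    refine ⟨hk, a ^ k, hD.pow_mem a ha k ?_, by simp⟩
    rintro h
    apply hk
    rw [← map_pow, h, map_one]
  one_not := fun h => h.1 rfl
  two := by
    rintro _ ⟨h1, a, ha, rfl⟩
    obtain ⟨k, hk⟩ := hD.two a ha
    exact ⟨k, by rw [← map_pow, hk, map_one]⟩
  pair := by
    intro A B hAc hAD hBc hBD
    set π := QuotientGroup.mk' K with hπ
    have hs : Function.Surjective π := QuotientGroup.mk'_surjective K
    obtain ⟨Q, hQL, hQo, hQn, hQc, hL⟩ := hD.pair (A.comap π) (B.comap π)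
      (comap_comm hD hu huc hu2 hK hAc hAD) (comap_D hD hu huc hu2 hK hAD)
      (comap_comm hD hu huc hu2 hK hBc hBD) (comap_D hD hu huc hu2 hK hBD)
    have hsup : (A.comap π ⊔ B.comap π).map π = A ⊔ B := by
      rw [Subgroup.map_sup, Subgroup.map_comap_eq_self_of_surjective hs,
        Subgroup.map_comap_eq_self_of_surjective hs]
    have hlift : ∀ l ∈ A ⊔ B, ∃ l' ∈ A.comap π ⊔ B.comap π, π l' = l := by
      intro l hl
      rw [← hsup] at hl
      exact hl
    refine ⟨Q.map π, ?_, ?_, ?_, ?_, ?_⟩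
    · rw [← hsup]
      exact Subgroup.map_mono hQL
    · exact hQo.of_dvd_nat (Subgroup.card_map_dvd _ _)
    · rintro l hl _ ⟨q, hq, rfl⟩
      obtain ⟨l', hl', rfl⟩ := hlift l hl
      exact ⟨_, hQn l' hl' q hq, by simp⟩
    · intro l hl m hm
      obtain ⟨l', hl', rfl⟩ := hlift l hl
      obtain ⟨m', hm', rfl⟩ := hlift m hm
      exact ⟨_, hQc l' hl' m' hm', by simp⟩
    · rintro l hl hl1 ⟨k, hk⟩
      obtain ⟨l', hl', rfl⟩ := hlift l hl
      have hl'1 : l' ≠ 1 := by
        rintro rfl
        exact hl1 (map_one _)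
      have h1 : l' ^ 2 ^ k ∈ K := by
        rw [← QuotientGroup.eq_one_iff]
        show π (l' ^ 2 ^ k) = 1
        rw [map_pow, hk]
      have h2 := two_of_K hD hu huc hu2 hK h1
      have h3 : l' ^ 2 ^ (k + 1) = 1 := by
        rw [pow_succ, pow_mul, h2]
      exact ⟨hl1, l', hL l' hl' hl'1 ⟨k + 1, h3⟩, rfl⟩

/-- An element of odd order in the preimage of the odd core of the quotient lies in the odd core. -/
lemma mem_oddCore_of_odd_of_comap {c : X} (hc : QuotientGroup.mk' K c ∈ oddCore (X ⧸ K)) (ho : Odd (orderOf c)) :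
    c ∈ oddCore X := by
  classical
  haveI : Fact (Nat.Prime 2) := ⟨Nat.prime_two⟩
  set π := QuotientGroup.mk' K with hπ
  set P : Subgroup X := (oddCore (X ⧸ K)).comap π with hP
  haveI hPn : P.Normal := by
    haveI : (oddCore (X ⧸ K)).Normal := Cfsg.Agent.Lib.Basic.PCore.pPrimeCore_normal 2 _
    exact Subgroup.Normal.comap inferInstance _
  have hKP : K ≤ P := by
    intro x hx
    show π x ∈ oddCore (X ⧸ K)
    have : π x = 1 := (QuotientGroup.eq_one_iff x).2 hx
    rw [this]
    exact Subgroup.one_mem _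
  -- the subgroup `K` in `P`
  set N : Subgroup P := K.subgroupOf P with hN
  haveI hNn : N.Normal := Subgroup.Normal.subgroupOf hKn P
  have hcardK : Nat.card K ∣ 2 := by
    have : K = Subgroup.zpowers u := by
      ext x
      rw [hK]
      constructor
      · rintro (rfl | rfl)
        · exact Subgroup.one_mem _
        · exact Subgroup.mem_zpowers _
      · rintro ⟨n, rfl⟩
        rcases Int.even_or_odd' n with ⟨m, rfl | rfl⟩
        · left
          show u ^ (2 * m) = 1
          rw [zpow_mul]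
          have : u ^ (2 : ℤ) = 1 := by
            rw [zpow_ofNat, ← hu2, pow_orderOf_eq_one]
          rw [this, one_zpow]
        · right
          show u ^ (2 * m + 1) = u
          rw [zpow_add, zpow_mul]
          have : u ^ (2 : ℤ) = 1 := by
            rw [zpow_ofNat, ← hu2, pow_orderOf_eq_one]
          rw [this, one_zpow, one_mul, zpow_one]
    rw [this, Nat.card_zpowers, hu2]
  have hcardN : Nat.card N ∣ 2 := by
    have h1 : Nat.card N = Nat.card K := Nat.card_congr (Subgroup.subgroupOfEquivOfLe hKP).toEquiv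
    rwa [h1]
  have hidx : Odd N.index := by
    -- the index of `K` in `P` is the order of the odd core
    have h1 : N.index = Nat.card (oddCore (X ⧸ K)) := by
      have h2 : N.index = K.relIndex P := rfl
      rw [h2, hP]
      exact relIndex_comap_mk K _
    rw [h1]
    have h2 := Cfsg.Agent.Lib.Components.Transport.coprime_card_pPrimeCore (G := X ⧸ K) 2
    exact Nat.coprime_two_right.1 h2
  have hcop : Nat.Coprime (Nat.card N) N.index := by
    have h2 : Nat.Coprime 2 N.index := Nat.coprime_two_left.2 hidx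
    exact Nat.Coprime.coprime_dvd_left hcardN h2
  obtain ⟨R₀, hR₀⟩ := Subgroup.exists_right_complement'_of_coprime hcop
  have hR₀card : Odd (Nat.card R₀) := by
    have h1 := hR₀.card_mul
    have h2 := N.card_mul_index
    have h3 : Nat.card R₀ = N.index := by
      apply Nat.eq_of_mul_eq_mul_left (Nat.card_pos (α := N))
      rw [h1, h2]
    rw [h3]
    exact hidx
  -- `P = K * R₀`; odd elements of `P` are in `R₀`
  have hchar : ∀ p : P, Odd (orderOf p) → p ∈ R₀ := by
    intro p hp
    obtain ⟨⟨n, r⟩, hnr⟩ := (hR₀.existsUnique p).exists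
    have hnr' : (n : P) * (r : P) = p := hnr
    have hnK : ((n : P) : X) ∈ K := n.2
    have hn2 : ((n : P) : X) ^ 2 = 1 := two_of_K hD hu huc hu2 hK hnK
    have hncomm : ∀ g : X, g * ((n : P) : X) = ((n : P) : X) * g := by
      intro g
      rcases (hK _).1 hnK with h | h
      · rw [h]; simp
      · rw [h]; exact huc g
    have hcomm : Commute (n : P) (r : P) := by
      apply Subtype.ext
      exact (hncomm _).symm
    set m := orderOf p * orderOf (r : P) with hm
    have hmodd : Odd m := by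
      refine hp.mul ?_
      have h1 := orderOf_dvd_natCard r
      rw [Subgroup.orderOf_coe] 
      exact hR₀card.of_dvd_nat h1
    have h3 : (n : P) ^ m = 1 := by
      have h4 : p ^ m = 1 := by
        rw [hm, pow_mul, pow_orderOf_eq_one, one_pow]
      have h5 : (r : P) ^ m = 1 := by
        rw [hm, mul_comm, pow_mul, pow_orderOf_eq_one, one_pow]
      rw [← hnr', hcomm.mul_pow, h5, mul_one] at h4
      exact h4
    have h6 : (n : P) = 1 := by
      apply eq_one_of_two_of_odd
      · refine ⟨1, ?_⟩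
        apply Subtype.ext
        simpa using hn2
      · exact hmodd.of_dvd_nat (orderOf_dvd_of_pow_eq_one h3)
    rw [← hnr', h6, one_mul]
    exact r.2
  set R : Subgroup X := R₀.map P.subtype with hR
  have hRo : Odd (Nat.card R) := by
    have h1 : Nat.card R = Nat.card R₀ := Subgroup.card_map_of_injective P.subtype_injective
    rwa [h1]
  have hRn : R.Normal := by
    constructor
    rintro _ ⟨r, hr, rfl⟩ g
    have h1 : g * (r : X) * g⁻¹ ∈ P := hPn.conj_mem _ r.2 g
    refine ⟨⟨_, h1⟩, ?_, rfl⟩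
    apply hchar
    rw [← Subgroup.orderOf_coe]
    show Odd (orderOf (g * (r : X) * g⁻¹))
    have h2 : orderOf (g * (r : X) * g⁻¹) = orderOf (r : X) := by
      have := orderOf_injective (MulAut.conj g).toMonoidHom (MulAut.conj g).injective (r : X)
      exact this
    rw [h2]
    have h3 := orderOf_dvd_natCard (⟨r, hr⟩ : R₀)
    rw [Subgroup.orderOf_mk, ← Subgroup.orderOf_coe] at h3
    exact hR₀card.of_dvd_nat h3
  have hcR : c ∈ R := by
    refine ⟨⟨c, hc⟩, hchar _ ?_, rfl⟩
    rw [← Subgroup.orderOf_coe]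
    exact ho
  exact Cfsg.Agent.Lib.Basic.PCore.le_pPrimeCore hRn (Nat.coprime_two_right.2 hRo) hcR

/-- The conclusion lifts from the quotient. -/
theorem concl_of_quot (h : Concl (qset D K)) : Concl D := by
  intro a ha b hb
  set π := QuotientGroup.mk' K with hπ
  by_cases ha1 : π a = 1
  · have h1 : a ∈ K := (QuotientGroup.eq_one_iff a).1 ha1
    have h2 : a * b = b * a := by
      rcases (hK a).1 h1 with rfl | rfl
      · simp
      · exact (huc b).symm
    have h3 : a * b * a⁻¹ * b⁻¹ = 1 := by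
      rw [h2]; group
    rw [h3]; exact Subgroup.one_mem _
  by_cases hb1 : π b = 1
  · have h1 : b ∈ K := (QuotientGroup.eq_one_iff b).1 hb1
    have h2 : a * b = b * a := by
      rcases (hK b).1 h1 with rfl | rfl
      · simp
      · exact huc a
    have h3 : a * b * a⁻¹ * b⁻¹ = 1 := by
      rw [h2]; group
    rw [h3]; exact Subgroup.one_mem _
  have h1 := h (π a) ⟨ha1, a, ha, rfl⟩ (π b) ⟨hb1, b, hb, rfl⟩
  obtain ⟨Q, hQL, hQo, hQn, hQc, hL⟩ := hD.pair (Subgroup.zpowers a) (Subgroup.zpowers b) (comm_zpowers a)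
    (hD.zpowers_mem ha) (comm_zpowers b) (hD.zpowers_mem hb)
  have hc := hQc a (Subgroup.mem_sup_left (Subgroup.mem_zpowers a)) b
    (Subgroup.mem_sup_right (Subgroup.mem_zpowers b))
  apply mem_oddCore_of_odd_of_comap hD hu huc hu2 hK _ (odd_orderOf_of_mem hQo hc)
  have e : QuotientGroup.mk' K (a * b * a⁻¹ * b⁻¹) = π a * π b * (π a)⁻¹ * (π b)⁻¹ := by
    simp only [map_mul, map_inv, hπ]
  rw [e]
  exact h1

end

end Cfsg.Agent.Lib.ExtClosed
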