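import Mathlib
import Cfsg.Prelude.Def_Blocks
import Cfsg.Agent.Lib.Blocks.PrincipalCen
import Cfsg.Agent.Lib.Char.Kazarin
import Cfsg.Agent.Lib.Char.Integrality
import Cfsg.Agent.Lib.Char.Values
import Cfsg.Agent.Lib.Char.CompleteCor
import Cfsg.Agent.S0907
import Cfsg.Agent.Lib.Components.ZStarCaseA

/-!
# A character sum contradiction

Let `y` be an involution of `G` with class `C`, and `T ⊆ C` with `|C| = 3 |T|`, such that `a y` has odd order for
`a ∈ T` and members of the principal `2`-block have `χ(a y) = χ(y)` for `a ∈ C \ T`.  If every nontrivial irreducible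
character has `3 χ(y) ≤ χ(1)`, then we get a contradiction.
-/

set_option autoImplicit false
set_option linter.style.haveILetI false
set_option linter.unusedSectionVars false

namespace Cfsg.Agent.Lib.ExtClosed.RankChar

open Cfsg Cfsg.Agent.Lib.Char.Integrality
open scoped ComplexConjugate

universe u

variable {G : Type u} [Group G]

/-- Fixed space of a group element. -/
def fixSp {n : ℕ} (ρ : Representation ℂ G (Fin n → ℂ)) (a : G) : Submodule ℂ (Fin n → ℂ) :=
  LinearMap.ker (ρ a - LinearMap.id)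

lemma mem_fixSp {n : ℕ} (ρ : Representation ℂ G (Fin n → ℂ)) (a : G) (v : Fin n → ℂ) :
    v ∈ fixSp ρ a ↔ ρ a v = v := by
  simp [fixSp, sub_eq_zero]

theorem character_of_involution {n : ℕ} (ρ : Representation ℂ G (Fin n → ℂ)) {a : G} (ha : a * a = 1) :
    ρ.character a = 2 * (Module.finrank ℂ (fixSp ρ a) : ℂ) - n := by
  set P : (Fin n → ℂ) →ₗ[ℂ] (Fin n → ℂ) := (1 / 2 : ℂ) • (LinearMap.id + ρ a) with hP
  have hρ2 : ∀ v, ρ a (ρ a v) = v := by
    intro v
    have h1 : ρ (a * a) = ρ a * ρ a := map_mul ρ a a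
    rw [ha, map_one] at h1
    have h2 := congrArg (fun f => f v) h1
    simpa using h2.symm
  have hproj : LinearMap.IsProj (fixSp ρ a) P := by
    constructor
    · intro v
      rw [mem_fixSp]
      simp only [hP, LinearMap.smul_apply, LinearMap.add_apply, LinearMap.id_coe, id_eq, map_smul, map_add, hρ2]
      rw [add_comm]
    · intro v hv
      rw [mem_fixSp] at hv
      simp only [hP, LinearMap.smul_apply, LinearMap.add_apply, LinearMap.id_coe, id_eq, hv]
      rw [← two_smul ℂ v, smul_smul]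
      norm_num
  have ht := hproj.trace
  rw [hP, map_smul, map_add, LinearMap.trace_id, Module.finrank_fin_fun] at ht
  have h3 : ρ.character a = LinearMap.trace ℂ _ (ρ a) := rfl
  rw [h3, ← ht]
  simp only [smul_eq_mul]
  ring

/-- A nontrivial irreducible representation has no nonzero vector fixed by a generating set of three elements. -/
theorem fix_inf_eq_bot {n : ℕ} (ρ : Representation ℂ G (Fin n → ℂ)) (hirr : ρ.IsIrreducible) {a b c : G}
    (hgen : Subgroup.closure ({a, b, c} : Set G) = ⊤) (hne : ∃ g, ρ.character g ≠ 1) :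
    fixSp ρ a ⊓ fixSp ρ b ⊓ fixSp ρ c = ⊥ := by
  by_contra hbot
  obtain ⟨v, hv, hv0⟩ := Submodule.exists_mem_ne_zero_of_ne_bot hbot
  obtain ⟨⟨hva, hvb⟩, hvc⟩ := hv
  rw [SetLike.mem_coe, mem_fixSp] at hva hvb hvc
  have hall : ∀ g, ρ g v = v := by
    intro g
    have hg : g ∈ Subgroup.closure ({a, b, c} : Set G) := by rw [hgen]; trivial
    induction hg using Subgroup.closure_induction with
    | mem x hx =>
      rcases hx with rfl | rfl | rfl
      · exact hva
      · exact hvb
      · exact hvc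
    | one => simp
    | mul x y _ _ hx hy =>
      rw [map_mul, Module.End.mul_apply, hy, hx]
    | inv x _ hx =>
      have h1 : ρ x⁻¹ (ρ x v) = v := by
        rw [← Module.End.mul_apply, ← map_mul]
        simp
      rwa [hx] at h1
  let S : Subrepresentation ρ :=
    { toSubmodule := Submodule.span ℂ {v}
      apply_mem_toSubmodule := by
        intro g w hw
        obtain ⟨c, rfl⟩ := Submodule.mem_span_singleton.1 hw
        rw [map_smul, hall g]
        exact Submodule.smul_mem _ _ (Submodule.mem_span_singleton_self v) }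
  rcases hirr.eq_bot_or_eq_top S with hS | hS
  · have h1 : v ∈ S.toSubmodule := Submodule.mem_span_singleton_self v
    have : S.toSubmodule = ⊥ := by rw [hS]; rfl
    rw [this] at h1
    exact hv0 (by simpa using h1)
  · have htop : S.toSubmodule = ⊤ := by rw [hS]; rfl
    have h2 := finrank_span_singleton (K := ℂ) hv0
    change Module.finrank ℂ (S.toSubmodule) = 1 at h2
    rw [htop, finrank_top, Module.finrank_fin_fun] at h2
    obtain ⟨g, hg⟩ := hne
    apply hg
    have h3 : ρ g = LinearMap.id := by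
      refine LinearMap.ext fun w => ?_
      have hw : w ∈ S.toSubmodule := by rw [htop]; trivial
      obtain ⟨c, rfl⟩ := Submodule.mem_span_singleton.1 hw
      rw [map_smul, hall g]
      rfl
    have h4 : ρ.character g = LinearMap.trace ℂ _ (ρ g) := rfl
    rw [h4, h3, LinearMap.trace_id, Module.finrank_fin_fun, h2]
    simp

/-- The bound on the fixed spaces. -/
theorem three_bound {n : ℕ} (ρ : Representation ℂ G (Fin n → ℂ)) (hirr : ρ.IsIrreducible) {a b c : G}
    (ha : a * a = 1) (hb : b * b = 1) (hc : c * c = 1)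
    (hab : ρ.character a = ρ.character b) (hac : ρ.character a = ρ.character c)
    (hgen : Subgroup.closure ({a, b, c} : Set G) = ⊤) (hne : ∃ g, ρ.character g ≠ 1) :
    ∃ f : ℕ, ρ.character a = 2 * (f : ℂ) - n ∧ 3 * f ≤ 2 * n := by
  have h0 := fix_inf_eq_bot ρ hirr hgen hne
  have ea := character_of_involution ρ ha
  have eb := character_of_involution ρ hb
  have ec := character_of_involution ρ hc
  refine ⟨_, ea, ?_⟩
  have hfab : Module.finrank ℂ (fixSp ρ a) = Module.finrank ℂ (fixSp ρ b) := by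
    have h1 : (2 : ℂ) * (Module.finrank ℂ (fixSp ρ a) : ℂ) = 2 * (Module.finrank ℂ (fixSp ρ b) : ℂ) := by
      have := hab
      rw [ea, eb] at this
      linear_combination this
    have h2 : (Module.finrank ℂ (fixSp ρ a) : ℂ) = (Module.finrank ℂ (fixSp ρ b) : ℂ) :=
      mul_left_cancel₀ two_ne_zero h1
    exact_mod_cast h2
  have hfac : Module.finrank ℂ (fixSp ρ a) = Module.finrank ℂ (fixSp ρ c) := by
    have h1 : (2 : ℂ) * (Module.finrank ℂ (fixSp ρ a) : ℂ) = 2 * (Module.finrank ℂ (fixSp ρ c) : ℂ) := by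
      have := hac
      rw [ea, ec] at this
      linear_combination this
    have h2 : (Module.finrank ℂ (fixSp ρ a) : ℂ) = (Module.finrank ℂ (fixSp ρ c) : ℂ) :=
      mul_left_cancel₀ two_ne_zero h1
    exact_mod_cast h2
  have h1 := Submodule.finrank_sup_add_finrank_inf_eq (fixSp ρ a) (fixSp ρ b)
  have h2 := Submodule.finrank_sup_add_finrank_inf_eq (fixSp ρ a ⊓ fixSp ρ b) (fixSp ρ c)
  rw [h0, finrank_bot] at h2
  have h3 := Submodule.finrank_le (fixSp ρ a ⊔ fixSp ρ b)
  have h4 := Submodule.finrank_le (fixSp ρ a ⊓ fixSp ρ b ⊔ fixSp ρ c)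
  rw [Module.finrank_fin_fun] at h3 h4
  omega

variable [Fintype G] {M : Ideal AlgInt} [hMp : M.IsPrime]

/-- Every value at an involution is an integer of the form `2 f - n`. -/
lemma irr_values {y : G} (hy : y * y = 1) (χ : IrrCharacter G) :
    ∃ (n f : ℕ), 0 < n ∧ (χ : G → ℂ) 1 = n ∧ (χ : G → ℂ) y = 2 * (f : ℂ) - n := by
  obtain ⟨n, ρ, hirr, hρ⟩ := χ.2
  haveI : ρ.IsIrreducible := hirr
  have hn : 0 < n := by
    have := Cfsg.Agent.Lib.Char.Integrality.finrank_ne_zero_of_isIrreducible ρ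
    simp only [Module.finrank_fin_fun] at this
    omega
  refine ⟨n, Module.finrank ℂ (fixSp ρ y), hn, ?_, ?_⟩
  · rw [← hρ]; simp
  · rw [← hρ]
    exact character_of_involution ρ hy

/-- The real function in the sum. -/
noncomputable def term (r m : ℝ) : ℝ := 3 * r ^ 3 / m - 2 * r ^ 2

lemma term_nonpos {r m : ℝ} (hm : 0 < m) (h : 3 * r ≤ m) : term r m ≤ 0 := by
  unfold term
  have h1 : 3 * r ^ 3 / m ≤ r ^ 2 := by
    rw [div_le_iff₀ hm]
    nlinarith [sq_nonneg r]
  nlinarith [sq_nonneg r]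

lemma term_neg {r m : ℝ} (hm : 0 < m) (h : r ≤ -1) : term r m ≤ -2 := by
  unfold term
  have h1 : 3 * r ^ 3 / m ≤ 0 := by
    apply div_nonpos_of_nonpos_of_nonneg _ hm.le
    nlinarith [sq_nonneg r]
  nlinarith [sq_nonneg r]

/-- **The contradiction.** -/
theorem abstract_false (hM : IsPModular 2 M) {y : G} (hy : orderOf y = 2) (T : Finset G)
    (hTC : T ⊆ classFinset y) (hTne : T.Nonempty) (hcard : (classFinset y).card = 3 * T.card)
    (hodd : ∀ a ∈ T, Odd (orderOf (a * y)))
    (heven : ∀ a ∈ classFinset y, a ∉ T → ∀ χ ∈ principalBlock M G, (χ : G → ℂ) (a * y) = (χ : G → ℂ) y)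
    (hbound : ∀ χ : IrrCharacter G, (∃ g, (χ : G → ℂ) g ≠ 1) → ∃ (n f : ℕ), (χ : G → ℂ) 1 = n ∧
      (χ : G → ℂ) y = 2 * (f : ℂ) - n ∧ 3 * f ≤ 2 * n) : False := by
  classical
  haveI : Fact (Nat.Prime 2) := ⟨Nat.prime_two⟩
  have hyy : y * y = 1 := by rw [← pow_two, ← hy, pow_orderOf_eq_one]
  set B : Finset (IrrCharacter G) := Finset.univ.filter (· ∈ principalBlock M G) with hB
  set triv : IrrCharacter G := Cfsg.Agent.Lib.Blocks.Principal.trivChar G with htriv
  have htrivB : triv ∈ B := Finset.mem_filter.2 ⟨Finset.mem_univ _,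
    Cfsg.Agent.Lib.Blocks.Principal.trivChar_mem_principalBlock⟩
  have htv : ∀ g : G, (triv : G → ℂ) g = 1 := fun g => rfl
  -- real parts
  set r : IrrCharacter G → ℝ := fun χ => ((χ : G → ℂ) y).re with hr
  set m : IrrCharacter G → ℝ := fun χ => ((χ : G → ℂ) 1).re with hm
  have hrv : ∀ χ : IrrCharacter G, (χ : G → ℂ) y = ((r χ : ℝ) : ℂ) := by
    intro χ
    obtain ⟨n, f, -, -, h⟩ := irr_values hyy χ
    simp only [hr, h]
    simp
  have hmv : ∀ χ : IrrCharacter G, (χ : G → ℂ) 1 = ((m χ : ℝ) : ℂ) := by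
    intro χ
    obtain ⟨n, f, -, h, -⟩ := irr_values hyy χ
    simp only [hm, h]
    simp
  have hmpos : ∀ χ : IrrCharacter G, 0 < m χ := by
    intro χ
    obtain ⟨n, f, hn, h, -⟩ := irr_values hyy χ
    simp only [hm, h]
    simpa using hn
  have hrint : ∀ χ : IrrCharacter G, ∃ k : ℤ, r χ = k := by
    intro χ
    obtain ⟨n, f, -, -, h⟩ := irr_values hyy χ
    refine ⟨2 * (f : ℤ) - n, ?_⟩
    simp only [hr, h]
    simp
  -- class sum
  have hclass : ∀ χ ∈ B, ∑ a ∈ T, (χ : G → ℂ) (a * y) =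
      (T.card : ℂ) * (3 * ((r χ : ℝ) : ℂ) ^ 2 / ((m χ : ℝ) : ℂ) - 2 * ((r χ : ℝ) : ℂ)) := by
    intro χ hχ
    have hχ' : χ ∈ principalBlock M G := (Finset.mem_filter.1 hχ).2
    obtain ⟨n, ρ, hirr, hρ⟩ := χ.2
    haveI : ρ.IsIrreducible := hirr
    have hs := Cfsg.Agent.Lib.Components.ZStarCaseA.sum_class_mul ρ y y
    rw [hρ, ← card_classFinset, hcard] at hs
    have hn : (χ : G → ℂ) 1 = (n : ℂ) := by
      rw [← hρ]; simp
    have hm0 : ((m χ : ℝ) : ℂ) ≠ 0 := by
      exact_mod_cast (hmpos χ).ne'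
    have hnm : (n : ℂ) = ((m χ : ℝ) : ℂ) := by rw [← hn, hmv χ]
    rw [hnm, hrv χ] at hs
    have hsplit := Finset.sum_sdiff (s₁ := T) (s₂ := classFinset y) (f := fun a => (χ : G → ℂ) (a * y)) hTC
    have hrest : ∑ a ∈ classFinset y \ T, (χ : G → ℂ) (a * y) = ((2 * T.card : ℕ) : ℂ) * ((r χ : ℝ) : ℂ) := by
      have h0 : ∑ a ∈ classFinset y \ T, (χ : G → ℂ) (a * y) = ∑ a ∈ classFinset y \ T, ((r χ : ℝ) : ℂ) :=
        Finset.sum_congr rfl (fun a ha => by
          rw [Finset.mem_sdiff] at ha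
          exact (heven a ha.1 ha.2 χ hχ').trans (hrv χ))
      rw [h0, Finset.sum_const, Finset.card_sdiff_of_subset hTC, hcard, nsmul_eq_mul]
      congr 2
      omega
    rw [← hsplit, hrest] at hs
    push_cast at hs
    field_simp at hs ⊢
    linear_combination hs
  -- orthogonality
  have horth : ∀ a ∈ T, ∑ χ ∈ B, (χ : G → ℂ) (a * y) * conj ((χ : G → ℂ) y) = 0 := by
    intro a ha
    have ho := Cfsg.Agent.S0907.result 2 M hM (principalBlock M G)
      (Cfsg.Agent.Lib.Blocks.Principal.isPBlock_principalBlock M) (a * y) y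
      (by
        intro h
        exact (Nat.not_even_iff_odd.2 (hodd a ha)) (even_iff_two_dvd.2 h)) (by rw [hy])
    rwa [Cfsg.Agent.Lib.Blocks.Osima.finsum_mem_eq_sum_filter] at ho
  have hsum : (T.card : ℂ) * ∑ χ ∈ B, ((term (r χ) (m χ) : ℝ) : ℂ) = 0 := by
    have h1 : ∑ a ∈ T, ∑ χ ∈ B, (χ : G → ℂ) (a * y) * conj ((χ : G → ℂ) y) = 0 :=
      Finset.sum_eq_zero horth
    rw [Finset.sum_comm] at h1
    rw [← h1, Finset.mul_sum]
    refine Finset.sum_congr rfl fun χ hχ => ?_
    rw [← Finset.sum_mul, hclass χ hχ, hrv χ, Complex.conj_ofReal]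
    unfold term
    push_cast
    ring
  have hT0 : (T.card : ℂ) ≠ 0 := by
    exact_mod_cast hTne.card_pos.ne'
  have hsum2 : ∑ χ ∈ B, term (r χ) (m χ) = 0 := by
    have h1 := (mul_eq_zero.1 hsum).resolve_left hT0
    exact_mod_cast h1
  -- orthogonality with the identity
  have horth1 : ∑ χ ∈ B, m χ * r χ = 0 := by
    have ho := Cfsg.Agent.S0907.result 2 M hM (principalBlock M G)
      (Cfsg.Agent.Lib.Blocks.Principal.isPBlock_principalBlock M) 1 y (by simp) (by rw [hy])
    rw [Cfsg.Agent.Lib.Blocks.Osima.finsum_mem_eq_sum_filter] at ho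
    have h1 : ∑ χ ∈ B, ((m χ * r χ : ℝ) : ℂ) = 0 := by
      rw [← ho]
      refine Finset.sum_congr rfl fun χ _ => ?_
      rw [hmv χ, hrv χ, Complex.conj_ofReal]
      push_cast
      ring
    exact_mod_cast h1
  have htr : r triv = 1 := by simp [hr, htv]
  have htm : m triv = 1 := by simp [hm, htv]
  -- a negative value
  have hex : ∃ χ ∈ B, r χ < 0 := by
    by_contra hno
    push Not at hno
    have h1 : m triv * r triv ≤ ∑ χ ∈ B, m χ * r χ := Finset.single_le_sum (f := fun χ => m χ * r χ)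
      (fun χ hχ => mul_nonneg (hmpos χ).le (hno χ hχ)) htrivB
    rw [horth1, htr, htm] at h1
    linarith
  obtain ⟨χ₀, hχ₀, hneg⟩ := hex
  have hχ₀t : χ₀ ≠ triv := by
    rintro rfl
    rw [htr] at hneg
    linarith
  have hle1 : r χ₀ ≤ -1 := by
    obtain ⟨k, hk⟩ := hrint χ₀
    rw [hk] at hneg ⊢
    have : k < 0 := by exact_mod_cast hneg
    have h2 : k ≤ -1 := by omega
    exact_mod_cast h2
  have hnt : ∀ χ : IrrCharacter G, χ ≠ triv → 3 * r χ ≤ m χ := by
    intro χ hχ
    have hne : ∃ g, (χ : G → ℂ) g ≠ 1 := by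
      by_contra hall
      push Not at hall
      apply hχ
      apply Subtype.ext
      funext g
      exact hall g
    obtain ⟨n, f, h1, h2, h3⟩ := hbound χ hne
    have h4 : r χ = 2 * (f : ℝ) - n := by
      simp only [hr, h2]
      simp
    have h5 : m χ = n := by
      simp only [hm, h1]
      simp
    rw [h4, h5]
    have h6 : (3 * f : ℝ) ≤ 2 * n := by exact_mod_cast h3
    linarith
  have htt : term (r triv) (m triv) = 1 := by
    rw [htr, htm]; unfold term; norm_num
  have hsplit : term (r triv) (m triv) + ∑ χ ∈ B.erase triv, term (r χ) (m χ) = ∑ χ ∈ B, term (r χ) (m χ) :=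
    Finset.add_sum_erase B (fun χ => term (r χ) (m χ)) htrivB
  rw [hsum2, htt] at hsplit
  have hχ₀e : χ₀ ∈ B.erase triv := Finset.mem_erase.2 ⟨hχ₀t, hχ₀⟩
  have h1 : - term (r χ₀) (m χ₀) ≤ ∑ χ ∈ B.erase triv, - term (r χ) (m χ) :=
    Finset.single_le_sum (f := fun χ => - term (r χ) (m χ))
    (fun χ hχ => by
      have := term_nonpos (hmpos χ) (hnt χ (Finset.mem_erase.1 hχ).1)
      linarith) hχ₀e
  rw [Finset.sum_neg_distrib] at h1
  have h2 := term_neg (hmpos χ₀) hle1
  linarith

end Cfsg.Agent.Lib.ExtClosed.RankChar
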