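import Cfsg.Agent.Lib.ExtClosed.Hyp

/-!
# Restriction to subgroups, conjugacy of the `Hs`, chains
-/

set_option autoImplicit false
set_option linter.unusedVariables false
set_option linter.style.haveILetI false
set_option linter.unusedSectionVars false
set_option linter.deprecated false

open Cfsg
open scoped Pointwise

namespace Cfsg.Agent.Lib.ExtClosed

universe u

variable {X : Type u} [Group X] {D : Set X}

/-- The restriction of `D` to a subgroup. -/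
def restr (D : Set X) (Y : Subgroup X) : Set Y := {y | (y : X) ∈ D}

lemma Hyp.restr (hD : Hyp D) (Y : Subgroup X) : Hyp (restr D Y) where
  conj_mem := by
    intro a ha g
    exact hD.conj_mem _ ha g
  pow_mem := by
    intro a ha k hk
    have h1 : (a : X) ^ k ≠ 1 := fun h => hk (Subtype.ext h)
    exact hD.pow_mem _ ha k h1
  one_not := hD.one_not
  two := by
    intro a ha
    obtain ⟨k, hk⟩ := hD.two _ ha
    exact ⟨k, Subtype.ext hk⟩
  pair := by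
    intro A B hAc hAD hBc hBD
    have hmapc : ∀ C : Subgroup Y, (∀ a ∈ C, ∀ a' ∈ C, a * a' = a' * a) →
        ∀ a ∈ C.map Y.subtype, ∀ a' ∈ C.map Y.subtype, a * a' = a' * a := by
      rintro C hC _ ⟨a, ha, rfl⟩ _ ⟨b, hb, rfl⟩
      exact congrArg Subtype.val (hC a ha b hb)
    have hmapD : ∀ C : Subgroup Y, (∀ a ∈ C, a ≠ 1 → a ∈ Cfsg.Agent.Lib.ExtClosed.restr D Y) →
        ∀ a ∈ C.map Y.subtype, a ≠ 1 → a ∈ D := by
      rintro C hC _ ⟨a, ha, rfl⟩ h1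
      exact hC a ha (fun h => h1 (by simp [h]))
    obtain ⟨Q, hQL, hQo, hQn, hQc, hL⟩ := hD.pair (A.map Y.subtype) (B.map Y.subtype) (hmapc A hAc) (hmapD A hAD)
      (hmapc B hBc) (hmapD B hBD)
    have hsup : A.map Y.subtype ⊔ B.map Y.subtype = (A ⊔ B).map Y.subtype := (Subgroup.map_sup _ _ _).symm
    rw [hsup] at hQL hQn hQc hL
    have hLY : (A ⊔ B).map Y.subtype ≤ Y := by
      rintro _ ⟨a, _, rfl⟩
      exact a.2
    have hQY : Q ≤ Y := hQL.trans hLY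
    refine ⟨Q.comap Y.subtype, ?_, ?_, ?_, ?_, ?_⟩
    · intro q hq
      obtain ⟨y, hy, he⟩ := hQL hq
      have : y = q := Subtype.ext he
      rwa [← this]
    · have h1 : Nat.card (Q.comap Y.subtype) = Nat.card Q :=
        Nat.card_congr (Subgroup.subgroupOfEquivOfLe hQY).toEquiv
      rwa [h1]
    · intro l hl q hq
      exact hQn _ ⟨l, hl, rfl⟩ _ hq
    · intro l hl l' hl'
      exact hQc _ ⟨l, hl, rfl⟩ _ ⟨l', hl', rfl⟩
    · intro l hl hl1 hl2
      obtain ⟨k, hk⟩ := hl2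
      refine hL _ ⟨l, hl, rfl⟩ (fun h => hl1 (Subtype.ext h)) ⟨k, ?_⟩
      exact congrArg Subtype.val hk

/-- The odd core of a subgroup, as a subgroup of the ambient group. -/
def OC (Y : Subgroup X) : Subgroup X := (oddCore Y).map Y.subtype

lemma OC_le (Y : Subgroup X) : OC Y ≤ Y := by
  rintro _ ⟨a, _, rfl⟩
  exact a.2

lemma OC_card (Y : Subgroup X) [Finite X] : Odd (Nat.card (OC Y)) := by
  have h1 : Nat.card (OC Y) = Nat.card (oddCore Y) := Subgroup.card_map_of_injective Y.subtype_injective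
  rw [h1]
  have h2 := Cfsg.Agent.Lib.Components.Transport.coprime_card_pPrimeCore (G := Y) 2
  exact Nat.coprime_two_right.1 h2

lemma OC_conj (Y : Subgroup X) {y q : X} (hy : y ∈ Y) (hq : q ∈ OC Y) : y * q * y⁻¹ ∈ OC Y := by
  obtain ⟨q', hq', rfl⟩ := hq
  have hn : (oddCore Y).Normal := Cfsg.Agent.Lib.Basic.PCore.pPrimeCore_normal 2 Y
  exact ⟨_, hn.conj_mem q' hq' ⟨y, hy⟩, rfl⟩

lemma le_OC [Finite X] {Y R : Subgroup X} (hRY : R ≤ Y) (hR : Odd (Nat.card R))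
    (hn : ∀ y ∈ Y, ∀ r ∈ R, y * r * y⁻¹ ∈ R) : R ≤ OC Y := by
  have hN : (R.subgroupOf Y).Normal := by
    constructor
    intro r hr y
    exact hn y y.2 r hr
  have hc : (Nat.card (R.subgroupOf Y)).Coprime 2 := by
    have h1 : Nat.card (R.subgroupOf Y) = Nat.card R :=
      Nat.card_congr (Subgroup.subgroupOfEquivOfLe hRY).toEquiv
    rw [h1]
    exact Nat.coprime_two_right.2 hR
  have hle := Cfsg.Agent.Lib.Basic.PCore.le_pPrimeCore hN hc
  intro r hr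
  exact ⟨⟨r, hRY hr⟩, hle hr, rfl⟩

/-- Odd core of a normal subgroup in the odd core. -/
lemma OC_le_oddCore [Finite X] {Y : Subgroup X} [hY : Y.Normal] : OC Y ≤ oddCore X := by
  haveI : Fact (Nat.Prime 2) := ⟨Nat.prime_two⟩
  haveI hch : (oddCore Y).Characteristic := Cfsg.Agent.Lib.Solvable.PSeries.pPrimeCore_char 2 Y
  have hN : (OC Y).Normal := Cfsg.Agent.Lib.Basic.PCore.map_subtype_normal_of_characteristic (oddCore Y)
  exact Cfsg.Agent.Lib.Basic.PCore.le_pPrimeCore hN (Nat.coprime_two_right.2 (OC_card Y))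

/-- The conclusion in a subgroup, in ambient form. -/
lemma concl_restr [Finite X] {Y : Subgroup X} (hC : Concl (restr D Y)) {a b : X} (ha : a ∈ D) (haY : a ∈ Y)
    (hb : b ∈ D) (hbY : b ∈ Y) : a * b * a⁻¹ * b⁻¹ ∈ OC Y := by
  have := hC ⟨a, haY⟩ ha ⟨b, hbY⟩ hb
  exact ⟨_, this, rfl⟩

/-- Ambient form of `mem_of_odd_of_two`. -/
lemma mem_OC_of_odd [Finite X] {Y : Subgroup X} {u v : X} (huY : u ∈ Y) (hvY : v ∈ Y) (hu : ∃ k : ℕ, u ^ 2 ^ k = 1)
    (hv : ∃ k : ℕ, v ^ 2 ^ k = 1) (hc : u * v * u⁻¹ * v⁻¹ ∈ OC Y) (ho : Odd (orderOf (u * v⁻¹))) :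
    u * v⁻¹ ∈ OC Y := by
  haveI hn : (oddCore Y).Normal := Cfsg.Agent.Lib.Basic.PCore.pPrimeCore_normal 2 Y
  have hc' : (⟨u, huY⟩ : Y) * ⟨v, hvY⟩ * (⟨u, huY⟩ : Y)⁻¹ * (⟨v, hvY⟩ : Y)⁻¹ ∈ oddCore Y := by
    obtain ⟨c, hc1, hc2⟩ := hc
    have : c = (⟨u, huY⟩ : Y) * ⟨v, hvY⟩ * (⟨u, huY⟩ : Y)⁻¹ * (⟨v, hvY⟩ : Y)⁻¹ := Subtype.ext hc2
    rwa [← this]
  have hu' : ∃ k : ℕ, (⟨u, huY⟩ : Y) ^ 2 ^ k = 1 := by
    obtain ⟨k, hk⟩ := hu
    exact ⟨k, Subtype.ext hk⟩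
  have hv' : ∃ k : ℕ, (⟨v, hvY⟩ : Y) ^ 2 ^ k = 1 := by
    obtain ⟨k, hk⟩ := hv
    exact ⟨k, Subtype.ext hk⟩
  have ho' : Odd (orderOf ((⟨u, huY⟩ : Y) * (⟨v, hvY⟩ : Y)⁻¹)) := by
    rw [← Subgroup.orderOf_coe]
    exact ho
  have := mem_of_odd_of_two (oddCore Y) hu' hv' hc' ho'
  exact ⟨_, this, rfl⟩

/-- A subgroup version of `exists_conj_mem_of_max`. -/
lemma exists_conj_le_of_max [Finite X] {L A B : Subgroup X} (hAL : A ≤ L) (hA : IsPGroup 2 A)
    (hmax : ∀ P : Subgroup X, P ≤ L → IsPGroup 2 P → A ≤ P → P = A) (hBL : B ≤ L)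
    (hB : IsPGroup 2 B) : ∃ l ∈ L, ∀ b ∈ B, l * b * l⁻¹ ∈ A := by
  classical
  haveI : Fact (Nat.Prime 2) := ⟨Nat.prime_two⟩
  have hA' : IsPGroup 2 (A.subgroupOf L) := hA.comap_of_injective L.subtype L.subtype_injective
  obtain ⟨S, hS⟩ := hA'.exists_le_sylow
  have hSmap : (S : Subgroup L).map L.subtype = A := by
    apply hmax
    · rintro _ ⟨x, _, rfl⟩
      exact x.2
    · exact S.isPGroup'.map _
    · intro a ha
      exact ⟨⟨a, hAL ha⟩, hS (by simpa [Subgroup.mem_subgroupOf] using ha), rfl⟩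
  have hB' : IsPGroup 2 (B.subgroupOf L) := hB.comap_of_injective L.subtype L.subtype_injective
  obtain ⟨T, hT⟩ := hB'.exists_le_sylow
  obtain ⟨g, hg⟩ := MulAction.exists_smul_eq L T S
  have h1 : MulAut.conj g • (T : Subgroup L) = S := by
    rw [← hg]; rfl
  refine ⟨g, g.2, fun b hb => ?_⟩
  have h2 : g * ⟨b, hBL hb⟩ * g⁻¹ ∈ (S : Subgroup L) := by
    rw [← h1]
    have := Subgroup.smul_mem_pointwise_smul (⟨b, hBL hb⟩ : L) (MulAut.conj g) (T : Subgroup L)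
      (hT (by simpa [Subgroup.mem_subgroupOf] using hb))
    simpa [MulAut.smul_def, MulAut.conj_apply] using this
  rw [← hSmap]
  exact ⟨_, h2, rfl⟩

/-- Two `Hs` in a subgroup `Y` satisfying the conclusion are conjugate by the odd core of `Y`. -/
theorem Hyp.conj_of_le [Finite X] (hD : Hyp D) (S T : Sylow 2 X) {Y : Subgroup X} (hSY : hD.Hs S ≤ Y) (hTY : hD.Hs T ≤ Y)
    (hC : Concl (Cfsg.Agent.Lib.ExtClosed.restr D Y)) :
    ∃ r ∈ OC Y, hD.Hs T = (hD.Hs S).map (MulAut.conj r).toMonoidHom := by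
  classical
  haveI : Fact (Nat.Prime 2) := ⟨Nat.prime_two⟩
  set A := hD.Hs S with hA
  set R := OC Y with hR
  have hA2 : IsPGroup 2 A := hD.HP_two _
  have hRo : Odd (Nat.card R) := OC_card Y
  -- each element of `Hs T` is in `R A`
  have hmem : ∀ a ∈ hD.Hs T, ∃ r ∈ R, ∃ h ∈ A, a = r * h := by
    intro a ha
    by_cases ha1 : a = 1
    · exact ⟨1, R.one_mem, 1, A.one_mem, by simp [ha1]⟩
    have haD : a ∈ D := hD.HP_D _ a ha ha1
    obtain ⟨Q, hQL, hQo, hQn, hQc, hL, hqa⟩ := hD.exists_sup S (Subgroup.zpowers a) (comm_zpowers a)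
      (hD.zpowers_mem haD)
    obtain ⟨q, hq, h, hh, e⟩ := hqa a (Subgroup.mem_sup_right (Subgroup.mem_zpowers a))
    have hq' : a * h⁻¹ = q := by rw [e]; group
    have hqodd : Odd (orderOf (a * h⁻¹)) := by
      rw [hq']; exact odd_orderOf_of_mem hQo hq
    by_cases hh1 : h = 1
    · exfalso
      apply ha1
      have : a = q := by rw [e, hh1, mul_one]
      rw [this]
      apply eq_one_of_two_of_odd
      · rw [← this]; exact hD.two a haD
      · exact odd_orderOf_of_mem hQo hq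
    have hhD : h ∈ D := hD.HP_D _ h hh hh1
    have hc := concl_restr hC haD (hTY ha) hhD (hSY hh)
    have h1 := mem_OC_of_odd (hTY ha) (hSY hh) (hD.two a haD) (hD.two h hhD) hc hqodd
    refine ⟨a * h⁻¹, h1, h, hh, by group⟩
  -- the group `A R`
  set T' : Subgroup X :=
    { carrier := {x | ∃ h ∈ A, ∃ r ∈ R, x = h * r}
      one_mem' := ⟨1, A.one_mem, 1, R.one_mem, by simp⟩
      mul_mem' := by
        rintro _ _ ⟨h, hh, r, hr, rfl⟩ ⟨h', hh', r', hr', rfl⟩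
        refine ⟨h * h', A.mul_mem hh hh', h'⁻¹ * r * h'⁻¹⁻¹ * r', R.mul_mem (OC_conj Y (hSY (A.inv_mem hh')) hr) hr', ?_⟩
        group
      inv_mem' := by
        rintro _ ⟨h, hh, r, hr, rfl⟩
        refine ⟨h⁻¹, A.inv_mem hh, h * r⁻¹ * h⁻¹, OC_conj Y (hSY hh) (R.inv_mem hr), ?_⟩
        group } with hT'
  have hAT' : A ≤ T' := fun a ha => ⟨a, ha, 1, R.one_mem, by simp⟩
  have hRT' : ∀ r ∈ R, r ∈ T' := fun r hr => ⟨1, A.one_mem, r, hr, by simp⟩
  have hmax : ∀ P : Subgroup X, P ≤ T' → IsPGroup 2 P → A ≤ P → P = A := by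
    intro P hPT hP hAP
    apply le_antisymm _ hAP
    intro p hp
    obtain ⟨h, hh, r, hr, e⟩ := hPT hp
    have h1 : r = h⁻¹ * p := by rw [e]; group
    have h2 : r ∈ P := by
      rw [h1]
      exact P.mul_mem (P.inv_mem (hAP hh)) hp
    have h3 : r = 1 := inter_eq_one hP hRo h2 hr
    rw [e, h3, mul_one]
    exact hh
  have hBT' : hD.Hs T ≤ T' := by
    intro a ha
    obtain ⟨r, hr, h, hh, e⟩ := hmem a ha
    exact T'.mul_mem (hRT' r hr) (hAT' hh) |> fun h5 => by rw [e]; exact h5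
  obtain ⟨l, hl, hlb⟩ := exists_conj_le_of_max hAT' hA2 hmax hBT' (hD.HP_two _)
  obtain ⟨h, hh, r, hr, e⟩ := hl
  have h1 : ∀ b ∈ hD.Hs T, r * b * r⁻¹ ∈ A := by
    intro b hb
    have h2 := hlb b hb
    rw [e] at h2
    have h3 : r * b * r⁻¹ = h⁻¹ * (h * r * b * (h * r)⁻¹) * h := by group
    rw [h3]
    exact A.mul_mem (A.mul_mem (A.inv_mem hh) h2) hh
  have hmapeq : (hD.Hs T).map (MulAut.conj r).toMonoidHom = A := by
    apply Subgroup.eq_of_le_of_card_ge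
    · rintro _ ⟨b, hb, rfl⟩
      exact h1 b hb
    · rw [Subgroup.card_map_of_injective (MulAut.conj r).injective]
      exact (hD.card_Hs S T).le
  refine ⟨r⁻¹, R.inv_mem hr, ?_⟩
  rw [← hmapeq]
  ext x
  constructor
  · intro hx
    refine ⟨r * x * r⁻¹, ⟨x, hx, rfl⟩, ?_⟩
    show r⁻¹ * (r * x * r⁻¹) * r⁻¹⁻¹ = x
    group
  · rintro ⟨_, ⟨b, hb, rfl⟩, rfl⟩
    have : r⁻¹ * (r * b * r⁻¹) * r⁻¹⁻¹ = b := by group
    show r⁻¹ * (r * b * r⁻¹) * r⁻¹⁻¹ ∈ hD.Hs T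
    rw [this]
    exact hb

/-- The chain lemma: two `Hs` are connected by a path of length `3`, consecutive terms sharing an involution
(if the first has at least two involutions and the second at least one). -/
theorem Hyp.exists_chain [Finite X] (hD : Hyp D) (S T : Sylow 2 X) {x y b : X} (hx : x ∈ hD.Hs S) (hy : y ∈ hD.Hs S)
    (hxy : x ≠ y) (hx2 : orderOf x = 2) (hy2 : orderOf y = 2) (hb : b ∈ hD.Hs T) (hb2 : orderOf b = 2) :
    ∃ (a w : X) (S' T' : Sylow 2 X), a ∈ hD.Hs S ∧ a ∈ hD.Hs S' ∧ orderOf a = 2 ∧ w ∈ hD.Hs S' ∧ w ∈ hD.Hs T' ∧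
      orderOf w = 2 ∧ b ∈ hD.Hs T' := by
  classical
  haveI : Fact (Nat.Prime 2) := ⟨Nat.prime_two⟩
  set A := hD.Hs S with hA
  have hA2 : IsPGroup 2 A := hD.HP_two _
  have hbD : b ∈ D := hD.HP_D _ b hb (by rintro rfl; simp at hb2)
  have hbb : b * b = 1 := by rw [← pow_two, ← hb2, pow_orderOf_eq_one]
  obtain ⟨Q, hQL, hQo, hQn, hQc, hL, hqa⟩ := hD.exists_sup S (hD.Hs T) (hD.HP_comm _) (hD.HP_D _)
  obtain ⟨q, hq, e, he, hqe⟩ := hqa b (Subgroup.mem_sup_right hb)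
  have heL : ∀ h ∈ A, h ∈ A ⊔ hD.Hs T := fun h hh => Subgroup.mem_sup_left hh
  -- choose `a`
  obtain ⟨a, haA, ha2, hae⟩ : ∃ a ∈ A, orderOf a = 2 ∧ a ≠ e⁻¹ := by
    by_cases h : x = e⁻¹
    · exact ⟨y, hy, hy2, fun h2 => hxy (h.trans h2.symm)⟩
    · exact ⟨x, hx, hx2, h⟩
  have haD : a ∈ D := hD.HP_D _ a haA (by rintro rfl; simp at ha2)
  have haa : a * a = 1 := by rw [← pow_two, ← ha2, pow_orderOf_eq_one]
  have hai : a⁻¹ = a := inv_eq_of_mul_eq_one_left haa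
  have hbi : b⁻¹ = b := inv_eq_of_mul_eq_one_left hbb
  set m := a * b with hm
  have hmL : m ∈ A ⊔ hD.Hs T := Subgroup.mul_mem _ (heL a haA) (Subgroup.mem_sup_right hb)
  -- `m` has even order
  have heven : Even (orderOf m) := by
    by_contra hodd
    rw [Nat.not_even_iff_odd] at hodd
    have h1 : m ∈ Q := mem_Q_of_odd hA2 hQo (fun l hl q hq => hQn l (heL l hl) q hq) (hqa m hmL) hodd
    have h2 : a * e = (a * q * a⁻¹)⁻¹ * m := by
      rw [hm, hqe]; group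
    have h3 : a * e ∈ Q := by
      rw [h2]
      exact Q.mul_mem (Q.inv_mem (hQn a (heL a haA) q hq)) h1
    have h4 : a * e = 1 := inter_eq_one hA2 hQo (A.mul_mem haA he) h3
    exact hae (eq_inv_of_mul_eq_one_left h4)
  obtain ⟨r, hr⟩ := heven
  have hr2 : orderOf m = 2 * r := by omega
  have hrpos : 0 < r := by
    have := orderOf_pos m
    omega
  set w := m ^ r with hw
  have hw1 : w ≠ 1 := by
    apply pow_ne_one_of_lt_orderOf hrpos.ne'
    omega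
  have hww : w ^ 2 = 1 := by
    rw [hw, ← pow_mul, mul_comm, ← hr2, pow_orderOf_eq_one]
  have hword : orderOf w = 2 := orderOf_eq_prime hww hw1
  have hwi : w⁻¹ = w := by
    have : w * w = 1 := by rw [← pow_two, hww]
    exact inv_eq_of_mul_eq_one_left this
  have hma : a * m * a⁻¹ = m⁻¹ := by
    rw [hm, hai, mul_inv_rev, hbi, hai]
    calc a * (a * b) * a = (a * a) * b * a := by group
      _ = b * a := by rw [haa, one_mul]
  have hmb : b * m * b⁻¹ = m⁻¹ := by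
    rw [hm, hbi, mul_inv_rev, hbi, hai]
    calc b * (a * b) * b = b * a * (b * b) := by group
      _ = b * a := by rw [hbb, mul_one]
  have hwa : a * w * a⁻¹ = w := by
    rw [hw, ← conj_pow, hma, inv_pow, ← hw, hwi]
  have hwb : b * w * b⁻¹ = w := by
    rw [hw, ← conj_pow, hmb, inv_pow, ← hw, hwi]
  have haw : a * w = w * a := by
    calc a * w = (a * w * a⁻¹) * a := by group
      _ = w * a := by rw [hwa]
  have hbw : b * w = w * b := by
    calc b * w = (b * w * b⁻¹) * b := by group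
      _ = w * b := by rw [hwb]
  have hwL : w ∈ A ⊔ hD.Hs T := Subgroup.pow_mem _ hmL _
  have hwD : w ∈ D := hL w hwL hw1 ⟨1, by simpa using hww⟩
  obtain ⟨S', h1, h2⟩ := hD.exists_mem_Hs_of_comm haD hwD haw
  obtain ⟨T', h3, h4⟩ := hD.exists_mem_Hs_of_comm hbD hwD hbw
  exact ⟨a, w, S', T', haA, h1, ha2, h2, h4, hword, h3⟩

end Cfsg.Agent.Lib.ExtClosed
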